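import Groth.Agent.Etdl.H437.RegPar
import Mathlib.Algebra.MvPolynomial.Equiv

/-!
# `R[X] → R[[X]]` is regular for a G-ring `R`
-/

set_option autoImplicit false
universe u

namespace Groth.Agent.Etdl.H436.RegX

open Polynomial

/-- `R[X] → R[[X]]` is regular for a G-ring `R`. -/
theorem isRegularHom_powerSeries (R : Type u) [CommRing R] (hR : CAlg.IsGRing R) :
    CAlg.IsRegularHom R[X] (PowerSeries R) := by
  have hN : IsNoetherianRing R := hR.1
  have h1 : CAlg.IsRegularHom (MvPolynomial Unit R) (MvPowerSeries Unit R) :=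
    H437.RegPar.isRegularHom_mvPowerSeries R hR Unit
  let e : R[X] ≃+* MvPolynomial Unit R := (MvPolynomial.pUnitAlgEquiv R).symm.toRingEquiv
  let _ : Algebra R[X] (MvPolynomial Unit R) := e.toRingHom.toAlgebra
  let e' : R[X] ≃ₐ[R[X]] MvPolynomial Unit R := AlgEquiv.ofRingEquiv (f := e) (fun _ => rfl)
  have hself : IsLocalization (⊥ : Submonoid R[X]) R[X] := IsLocalization.self bot_le
  have : IsLocalization (⊥ : Submonoid R[X]) (MvPolynomial Unit R) :=
    IsLocalization.isLocalization_of_algEquiv ⊥ e'
  have h2 : CAlg.IsRegularHom R[X] (MvPolynomial Unit R) :=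
    CalgB.RegHom7.isRegularHom_of_isLocalization _ (⊥ : Submonoid R[X])
  let _ : Algebra R[X] (MvPowerSeries Unit R) := inferInstanceAs (Algebra R[X] (PowerSeries R))
  have : IsScalarTower R[X] (MvPolynomial Unit R) (MvPowerSeries Unit R) := by
    refine IsScalarTower.of_algebraMap_eq' ?_
    apply Polynomial.ringHom_ext
    · intro r
      change ((Polynomial.C r : R[X]) : PowerSeries R) =
        ((e (Polynomial.C r) : MvPolynomial Unit R) : MvPowerSeries Unit R)
      have : e (Polynomial.C r) = MvPolynomial.C r := by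
        change (MvPolynomial.pUnitAlgEquiv R).symm (algebraMap R R[X] r) = _
        rw [AlgEquiv.commutes]
        rfl
      rw [this, MvPolynomial.coe_C, Polynomial.coe_C]
      rfl
    · change ((Polynomial.X : R[X]) : PowerSeries R) =
        ((e Polynomial.X : MvPolynomial Unit R) : MvPowerSeries Unit R)
      have : e Polynomial.X = MvPolynomial.X () := by
        change (MvPolynomial.pUnitAlgEquiv R).symm Polynomial.X = _
        rw [AlgEquiv.symm_apply_eq]
        simp
      rw [this, MvPolynomial.coe_X, Polynomial.coe_X]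
      rfl
  exact CalgB.RegHom6.isRegularHom_comp h2 h1

end Groth.Agent.Etdl.H436.RegX
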